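import Cfsg.Agent.H215.J7.Bounds
import Cfsg.Agent.H587.S3068.Thm
import Cfsg.Agent.H575.J7.Layers
import Cfsg.Agent.H352.J7.RD

/-!
# Assembly of S3068 (T9)
-/

set_option autoImplicit false

namespace Cfsg.Agent.H215.J7

open Subgroup Cfsg Cfsg.Agent.H215.J7.Form
open scoped commutatorElement

universe u

attribute [local instance] DMod.iW DMod.iV DMod.aW DMod.aV DMod.fW DMod.fV

variable {G : Type u} [Group G] [Finite G] {p : ℕ} [Fact p.Prime]

theorem pCore_isP (p : ℕ) [Fact p.Prime] (G : Type u) [Group G] [Finite G] : IsPGroup p (pCore p G) :=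
  Lib.Cores.pCore_isPGroup p

theorem fac (S : Sylow p G) {R D A : Subgroup G} (h : RD p (pCore p G) R D)
    (hA : Pick (S : Subgroup G) (pCore p G) R D A) {B : Subgroup G} (hBD : B ≤ D) :
    DMod.Fac p (pCore p G) R B (S : Subgroup G) A where
  S_p := S.isPGroup'
  DS := hBD.trans (h.leQ.trans (H39.pCore_le_sylow S))
  AS := hA.le
  Ac := hA.comm
  quad := H587.S3068.t3_quad S h hA
  form := fun y hy hyA => H587.S3068.t3_form S h hA (hBD hy) hyA

section

variable {Q R D : Subgroup G} (m : DMod p Q R D)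

omit [Finite G] [Fact p.Prime] in
theorem w_comm4 (hD : D.Normal) (u : G) {x : G} (hx : x ∈ D) :
    m.w ⁅u, ⁅u, ⁅u, ⁅u, x⁆⁆⁆⁆ = dl u (dl u (dl u (dl u (m.w x)))) := by
  have hc : ∀ {x : G}, x ∈ D → ⁅u, x⁆ ∈ D := fun hx => DMod.comm_mem hD u hx
  rw [m.w_comm hD u (hc (hc (hc hx))), m.w_comm hD u (hc (hc hx)), m.w_comm hD u (hc hx), m.w_comm hD u hx]

omit [Finite G] [Fact p.Prime] in
theorem w_comm6 (hD : D.Normal) (u : G) {x : G} (hx : x ∈ D) :
    m.w ⁅u, ⁅u, ⁅u, ⁅u, ⁅u, ⁅u, x⁆⁆⁆⁆⁆⁆ = dl u (dl u (dl u (dl u (dl u (dl u (m.w x)))))) := by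
  have hc : ∀ {x : G}, x ∈ D → ⁅u, x⁆ ∈ D := fun hx => DMod.comm_mem hD u hx
  rw [w_comm4 m hD u (hc (hc hx)), m.w_comm hD u (hc hx), m.w_comm hD u hx]

end

/-- six in general -/
theorem t9_six' (S : Sylow p G) {R D A : Subgroup G} (h : RD p (pCore p G) R D)
    (hA : Pick (S : Subgroup G) (pCore p G) R D A) :
    ∀ x ∈ D, ∀ u ∈ A, ⁅u, ⁅u, ⁅u, ⁅u, ⁅u, ⁅u, x⁆⁆⁆⁆⁆⁆ ∈ R := by
  intro x hx u hu
  have hQ := pCore_normal p G
  have hpre := h.pre hQ
  obtain ⟨m⟩ := hpre.exists_dmod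
  have h6 := m.six hpre (fac S h hA le_rfl)
  have hc : ∀ {x : G}, x ∈ D → ⁅u, x⁆ ∈ D := fun hx => DMod.comm_mem h.Dn u hx
  rw [← m.w_zero _ (hc (hc (hc (hc (hc (hc hx)))))), w_comm6 m h.Dn u hx]
  have h0 : m.w x ∈ Ip ↥A (⊤ : AddSubgroup m.W) 0 := AddSubgroup.mem_top _
  have h1 := dl_mem (dl_mem (dl_mem (dl_mem (dl_mem (dl_mem h0 ⟨u, hu⟩) ⟨u, hu⟩) ⟨u, hu⟩) ⟨u, hu⟩) ⟨u, hu⟩) ⟨u, hu⟩
  rw [h6, AddSubgroup.mem_bot] at h1
  exact h1

/-- the bound on the chief factors in `D` -/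
theorem six_chief (hp : 7 ≤ p) (S : Sylow p G) {R D A : Subgroup G} (h : RD p (pCore p G) R D)
    (hA : Pick (S : Subgroup G) (pCore p G) R D A) :
    ∀ U V : Subgroup G, IsChiefFactor U V → U ≤ D → ∀ a ∈ A, iterCommutator U (zpowers a) 6 ≤ V :=
  H575.J7.t8_six (pCore_normal p G) (pCore_isP p G) h
    (fun X hX hXR x hx u hu => H587.S3068.t3_cubic S h hA hX hXR x hx u hu u hu u hu) (t9_six' S h hA)

/-- four on `D / R`, if `C_G(V) S ≠ G` -/
theorem four_t (hp : 7 ≤ p) (S : Sylow p G) {R D A : Subgroup G} (h : RD p (pCore p G) R D)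
    (hA : Pick (S : Subgroup G) (pCore p G) R D A) {t : G} (ht : t * t ∈ pCore p G)
    (htA : ∀ a ∈ A, ⁅t, a⁆ ∈ pCore p G) (htV : ∀ v ∈ VV p (pCore p G), t * v = v * t → ∀ a ∈ A, a * v = v * a) :
    ∀ x ∈ D, ∀ u ∈ A, ⁅u, ⁅u, ⁅u, ⁅u, x⁆⁆⁆⁆ ∈ R := by
  intro x hx u hu
  have hQ := pCore_normal p G
  have hpre := h.pre hQ
  obtain ⟨m⟩ := hpre.exists_dmod
  have hk := fac S h hA le_rfl
  have hp2 : p ≠ 2 := by omega
  have hVn := H352.J7.vv_normal p (pCore p G)
  have hc : ∀ {x : G}, x ∈ D → ⁅u, x⁆ ∈ D := fun hx => DMod.comm_mem h.Dn u hx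
  rw [← m.w_zero _ (hc (hc (hc (hc hx)))), w_comm4 m h.Dn u hx]
  -- `Q` acts trivially
  have hQt : ∀ q ∈ pCore p G, ∀ w : m.W, q • w = w := by
    intro q hq w
    obtain ⟨y, hy, rfl⟩ := m.w_surj w
    have h1 : dl q (m.w y) = 0 := by
      rw [← m.w_comm h.Dn q hy, m.w_zero _ (DMod.comm_mem h.Dn q hy)]
      have := commutator_mem_commutator hy hq
      have h2 := inv_mem (h.DQ this)
      rwa [commutatorElement_inv] at h2
    exact sub_eq_zero.1 h1
  have htt : ∀ w : m.W, t • t • w = w := fun w => by rw [← mul_smul]; exact hQt _ ht w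
  have hta : ∀ a ∈ A, ∀ w : m.W, t • a • w = a • t • w := by
    intro a ha w
    have e : t * a = ⁅t, a⁆ * (a * t) := by rw [commutatorElement_def]; group
    rw [← mul_smul, e, mul_smul, hQt _ (htA a ha), mul_smul]
  -- vectors of `V` fixed by `t` are fixed by `A`
  have hfixV : ∀ z : m.V, t • z = z → ∀ a : ↥A, a • z = z := by
    intro z hz a
    obtain ⟨v, hv, rfl⟩ := m.v_surj z
    have h1 : dl t (m.v v) = 0 := sub_eq_zero.2 hz
    rw [← m.v_comm hQ t hv, m.v_zero _ (DMod.comm_mem hVn t hv), commutatorElement_eq_one_iff_mul_comm] at h1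
    have h2 := htV v hv h1 a a.2
    have h3 : dl (a : G) (m.v v) = 0 := by
      rw [← m.v_comm hQ (a : G) hv, m.v_zero _ (DMod.comm_mem hVn (a : G) hv), commutatorElement_eq_one_iff_mul_comm]
      exact h2
    exact sub_eq_zero.1 h3
  let Yp : AddSubgroup m.W :=
    { carrier := {w | t • w = w}
      zero_mem' := smul_zero t
      add_mem' := by
        intro v w hv hw
        show t • (v + w) = v + w
        rw [smul_add, show t • v = v from hv, show t • w = w from hw]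
      neg_mem' := by
        intro v hv
        show t • (-v) = -v
        rw [smul_neg, show t • v = v from hv] }
  let Ym : AddSubgroup m.W :=
    { carrier := {w | t • w = -w}
      zero_mem' := by show t • (0 : m.W) = -0; rw [smul_zero, neg_zero]
      add_mem' := by
        intro v w hv hw
        show t • (v + w) = -(v + w)
        rw [smul_add, show t • v = -v from hv, show t • w = -w from hw]; abel
      neg_mem' := by
        intro v hv
        show t • (-v) = -(-v)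
        rw [smul_neg, show t • v = -v from hv] }
  have hp4 : Ip ↥A Yp 4 = ⊥ := by
    refine m.four hp2 hpre hk (fun a y hy => ?_) (fun x hx y hy => hfixV _ ?_)
    · show t • (a : G) • y = (a : G) • y
      rw [hta a a.2, show t • y = y from hy]
    · rw [← m.f_smul hpre, show t • x = x from hx, show t • y = y from hy]
  have hm4 : Ip ↥A Ym 4 = ⊥ := by
    refine m.four hp2 hpre hk (fun a y hy => ?_) (fun x hx y hy => hfixV _ ?_)
    · show t • (a : G) • y = -((a : G) • y)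
      rw [hta a a.2, show t • y = -y from hy, smul_neg]
    · rw [← m.f_smul hpre, show t • x = -x from hx, show t • y = -y from hy]
      simp
  have hkill : ∀ Y : AddSubgroup m.W, Ip ↥A Y 4 = ⊥ → ∀ y ∈ Y, dl u (dl u (dl u (dl u y))) = 0 := by
    intro Y hY y hy
    have h0 : y ∈ Ip ↥A Y 0 := hy
    have h1 := dl_mem (dl_mem (dl_mem (dl_mem h0 ⟨u, hu⟩) ⟨u, hu⟩) ⟨u, hu⟩) ⟨u, hu⟩
    rw [hY, AddSubgroup.mem_bot] at h1
    exact h1
  apply m.two_W hp2 hpre
  set w := m.w x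
  have e1 : w + t • w ∈ Yp := by
    show t • (w + t • w) = w + t • w
    rw [smul_add, htt, add_comm]
  have e2 : w - t • w ∈ Ym := by
    show t • (w - t • w) = -(w - t • w)
    rw [smul_sub, htt]; abel
  have h1 := hkill Yp hp4 _ e1
  have h2 := hkill Ym hm4 _ e2
  rw [dl_add, dl_add, dl_add, dl_add] at h1
  rw [dl_sub, dl_sub, dl_sub, dl_sub] at h2
  have h3 := congrArg₂ (· + ·) h1 h2
  simp only [add_zero] at h3
  rw [← h3]; abel

/-- four on `D / R`, if `C_G(V) S = G` -/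
theorem four_b (hp : 7 ≤ p) (S : Sylow p G) {R D A : Subgroup G} (h : RD p (pCore p G) R D)
    (hA : Pick (S : Subgroup G) (pCore p G) R D A)
    (hN : centralizer (VV p (pCore p G) : Set G) ⊔ (S : Subgroup G) = ⊤) :
    ∀ x ∈ D, ∀ u ∈ A, ⁅u, ⁅u, ⁅u, ⁅u, x⁆⁆⁆⁆ ∈ R := by
  intro x hx u hu
  have hQ := pCore_normal p G
  have hp2 : p ≠ 2 := by omega
  have hVn := H352.J7.vv_normal p (pCore p G)
  -- the statement for `B`
  have hB : ∀ B : Subgroup G, IsChiefFactor B R → B ≤ D → ∀ x ∈ B, ⁅u, ⁅u, ⁅u, ⁅u, x⁆⁆⁆⁆ ∈ R := by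
    intro B hB hBD x hx
    have hpre := h.pre_chief hQ hB hBD
    obtain ⟨m⟩ := hpre.exists_dmod
    have hk := fac S h hA hBD
    have hc : ∀ {x : G}, x ∈ B → ⁅u, x⁆ ∈ B := fun hx => DMod.comm_mem hpre.Dn u hx
    rw [← m.w_zero _ (hc (hc (hc (hc hx)))), w_comm4 m hpre.Dn u hx]
    have hirr : ∀ N : AddSubgroup m.W, (∀ (g : G), ∀ w ∈ N, g • w ∈ N) → N = ⊥ ∨ N = ⊤ := by
      intro N hN
      let K : Subgroup G :=
        { carrier := {x | x ∈ B ∧ m.w x ∈ N}
          one_mem' := ⟨one_mem _, by rw [m.w_one]; exact zero_mem _⟩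
          mul_mem' := by
            rintro x y ⟨hx, hx'⟩ ⟨hy, hy'⟩
            exact ⟨mul_mem hx hy, by rw [m.w_add x hx y hy]; exact add_mem hx' hy'⟩
          inv_mem' := by
            rintro x ⟨hx, hx'⟩
            exact ⟨inv_mem hx, by rw [m.w_inv hx]; exact neg_mem hx'⟩ }
      have hKn : K.Normal := ⟨fun x hx g => ⟨hpre.Dn.conj_mem x hx.1 g, by
        rw [m.w_smul g x hx.1]; exact hN g _ hx.2⟩⟩
      rcases hB.2.2.2 K hKn (fun x hx => ⟨hB.1.le hx, by
        rw [(m.w_zero x (hB.1.le hx)).2 hx]; exact zero_mem _⟩) (fun x hx => hx.1) with h1 | h1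
      · left
        rw [eq_bot_iff]
        intro w hw
        obtain ⟨x, hx, rfl⟩ := m.w_surj w
        have h2 : x ∈ K := ⟨hx, hw⟩
        rw [h1] at h2
        exact (m.w_zero x hx).2 h2
      · right
        rw [eq_top_iff]
        intro w _
        obtain ⟨x, hx, rfl⟩ := m.w_surj w
        have h2 : x ∈ K := by rw [h1]; exact hx
        exact h2.2
    have h6 := m.six hpre hk
    have hfix : ∀ x ∈ (⊤ : AddSubgroup m.W), ∀ y ∈ (⊤ : AddSubgroup m.W), ∀ a : ↥A, a • m.f x y = m.f x y := by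
      intro x _ y _ a
      refine EndL.main (G := G) (p := p) (m.nsmul_W hpre) (m.nsmul_V) (f := m.f) (m.f_smul hpre)
        (L := centralizer (VV p (pCore p G) : Set G)) (S := (S : Subgroup G)) inferInstance ?_ S.isPGroup' hN hirr
        (a := (a : G)) ?_ ?_ x y
      · intro l hl v
        obtain ⟨v, hv, rfl⟩ := m.v_surj v
        have h1 := mem_centralizer_iff.1 hl v hv
        have h2 : dl l (m.v v) = 0 := by
          rw [← m.v_comm hQ l hv, m.v_zero _ (DMod.comm_mem hVn l hv), commutatorElement_eq_one_iff_mul_comm]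
          exact h1.symm
        exact sub_eq_zero.1 h2
      · intro w
        have h0 : w ∈ Ip ↥A (⊤ : AddSubgroup m.W) 0 := AddSubgroup.mem_top _
        have h7 : ∀ n, (dl (a : G))^[n] w ∈ Ip ↥A (⊤ : AddSubgroup m.W) n := by
          intro n
          induction n with
          | zero => exact h0
          | succ n ih =>
            rw [Function.iterate_succ_apply']
            exact dl_mem ih a
        have h8 : (dl (a : G))^[6] w = 0 := by
          have := h7 6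
          rw [h6, AddSubgroup.mem_bot] at this
          exact this
        obtain ⟨j, hj⟩ : ∃ j, p - 1 = j + 6 := ⟨p - 7, by omega⟩
        rw [hj, Function.iterate_add_apply, h8]
        have h9 : ∀ j, (dl (a : G))^[j] (0 : m.W) = 0 := by
          intro j
          induction j with
          | zero => rfl
          | succ j ih => rw [Function.iterate_succ_apply', ih, dl_zero]
        exact h9 j
      · intro v
        exact m.hZ hpre hk a a v
    have h4 := m.four hp2 hpre hk (Y := ⊤) (fun a y _ => AddSubgroup.mem_top _) hfix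
    have h0 : m.w x ∈ Ip ↥A (⊤ : AddSubgroup m.W) 0 := AddSubgroup.mem_top _
    have h1 := dl_mem (dl_mem (dl_mem (dl_mem h0 ⟨u, hu⟩) ⟨u, hu⟩) ⟨u, hu⟩) ⟨u, hu⟩
    rw [h4, AddSubgroup.mem_bot] at h1
    exact h1
  -- all of `D`
  have hpre := h.pre hQ
  obtain ⟨m⟩ := hpre.exists_dmod
  have hc : ∀ {x : G}, x ∈ D → ⁅u, x⁆ ∈ D := fun hx => DMod.comm_mem h.Dn u hx
  have hiff : ∀ x ∈ D, ⁅u, ⁅u, ⁅u, ⁅u, x⁆⁆⁆⁆ ∈ R ↔ dl u (dl u (dl u (dl u (m.w x)))) = 0 := fun x hx => by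
    rw [← w_comm4 m h.Dn u hx, m.w_zero _ (hc (hc (hc (hc hx))))]
  let K : Subgroup G :=
    { carrier := {x | x ∈ D ∧ dl u (dl u (dl u (dl u (m.w x)))) = 0}
      one_mem' := ⟨one_mem _, by rw [m.w_one, dl_zero, dl_zero, dl_zero, dl_zero]⟩
      mul_mem' := by
        rintro x y ⟨hx, hx'⟩ ⟨hy, hy'⟩
        exact ⟨mul_mem hx hy, by
          rw [m.w_add x hx y hy, dl_add, dl_add, dl_add, dl_add, hx', hy', add_zero]⟩
      inv_mem' := by
        rintro x ⟨hx, hx'⟩
        exact ⟨inv_mem hx, by rw [m.w_inv hx, dl_neg, dl_neg, dl_neg, dl_neg, hx', neg_zero]⟩ }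
  have hDK : D ≤ K := by
    refine h.soc.trans (sup_le ?_ (sSup_le ?_))
    · intro r hr
      refine ⟨h.le hr, ?_⟩
      rw [(m.w_zero r (h.le hr)).2 hr, dl_zero, dl_zero, dl_zero, dl_zero]
    · rintro B ⟨hB1, hB2⟩ y hy
      exact ⟨hB2 hy, (hiff y (hB2 hy)).1 (hB B hB1 hB2 y hy)⟩
  exact (hiff x hx).2 (hDK hx).2

end Cfsg.Agent.H215.J7
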