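import Mathlib.GroupTheory.Subgroup.Center
import Mathlib.Algebra.Group.Subgroup.Lattice
import Mathlib.GroupTheory.GroupAction.Hom
import Mathlib.Tactic.Abel
import Mathlib.Tactic.NormNum
import Mathlib.Tactic.Linarith

/-!
# Bounds for the nilpotency index of abelian groups acting on alternating forms (T4 of S3068)
-/

set_option autoImplicit false

namespace Cfsg.Agent.H215.J7.Form

variable {A W Z : Type*} [Group A] [AddCommGroup W] [AddCommGroup Z] [DistribMulAction A W] [DistribMulAction A Z]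

/-- `(a - 1) w` -/
def dl (a : A) (w : W) : W := a • w - w

theorem dl_add (a : A) (v w : W) : dl a (v + w) = dl a v + dl a w := by
  unfold dl; rw [smul_add]; abel

theorem dl_neg (a : A) (w : W) : dl a (-w) = -dl a w := by
  unfold dl; rw [smul_neg]; abel

theorem dl_zero (a : A) : dl a (0 : W) = 0 := by
  unfold dl; rw [smul_zero, sub_zero]

theorem dl_sub (a : A) (v w : W) : dl a (v - w) = dl a v - dl a w := by
  unfold dl; rw [smul_sub]; abel

theorem dl_comm (hc : ∀ (a b : A) (w : W), a • b • w = b • a • w) (a b : A) (w : W) :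
    dl a (dl b w) = dl b (dl a w) := by
  unfold dl; rw [smul_sub, smul_sub, hc a b w]; abel

/-- `I^n Y` -/
def Ip (A : Type*) [Group A] [DistribMulAction A W] (Y : AddSubgroup W) : ℕ → AddSubgroup W
  | 0 => Y
  | n + 1 => AddSubgroup.closure {w | ∃ a : A, ∃ y ∈ Ip A Y n, w = dl a y}

theorem Ip_zero (Y : AddSubgroup W) : Ip A Y 0 = Y := rfl

theorem dl_mem {Y : AddSubgroup W} {n : ℕ} {y : W} (hy : y ∈ Ip A Y n) (a : A) : dl a y ∈ Ip A Y (n + 1) :=
  AddSubgroup.subset_closure ⟨a, y, hy, rfl⟩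

theorem Ip_le {Y K : AddSubgroup W} {n : ℕ} (h : ∀ a : A, ∀ y ∈ Ip A Y n, dl a y ∈ K) : Ip A Y (n + 1) ≤ K := by
  refine (AddSubgroup.closure_le K).2 ?_
  rintro _ ⟨a, y, hy, rfl⟩
  exact h a y hy

theorem smul_mem_Ip {Y : AddSubgroup W} (hY : ∀ a : A, ∀ y ∈ Y, a • y ∈ Y)
    (hc : ∀ (a b : A) (w : W), a • b • w = b • a • w) (n : ℕ) : ∀ (a : A), ∀ y ∈ Ip A Y n, a • y ∈ Ip A Y n := by
  induction n with
  | zero => exact hY
  | succ n ih =>
    intro a
    let K : AddSubgroup W :=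
      { carrier := {w | a • w ∈ Ip A Y (n + 1)}
        zero_mem' := by show a • (0 : W) ∈ Ip A Y (n + 1); rw [smul_zero]; exact zero_mem _
        add_mem' := by
          intro v w hv hw
          show a • (v + w) ∈ Ip A Y (n + 1)
          rw [smul_add]; exact add_mem hv hw
        neg_mem' := by
          intro v hv
          show a • (-v) ∈ Ip A Y (n + 1)
          rw [smul_neg]; exact neg_mem hv }
    have h1 : Ip A Y (n + 1) ≤ K := by
      refine Ip_le fun b y hy => ?_
      show a • dl b y ∈ Ip A Y (n + 1)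
      have e : a • dl b y = dl b (a • y) := by
        unfold dl; rw [smul_sub, hc a b y]
      rw [e]
      exact dl_mem (ih a y hy) b
    exact fun y hy => h1 hy

theorem Ip_succ_le {Y : AddSubgroup W} (hY : ∀ a : A, ∀ y ∈ Y, a • y ∈ Y)
    (hc : ∀ (a b : A) (w : W), a • b • w = b • a • w) (n : ℕ) : Ip A Y (n + 1) ≤ Ip A Y n := by
  refine Ip_le fun a y hy => ?_
  exact sub_mem (smul_mem_Ip hY hc n a y hy) hy

theorem Ip_anti {Y : AddSubgroup W} (hY : ∀ a : A, ∀ y ∈ Y, a • y ∈ Y)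
    (hc : ∀ (a b : A) (w : W), a • b • w = b • a • w) {m n : ℕ} (h : m ≤ n) : Ip A Y n ≤ Ip A Y m := by
  induction h with
  | refl => exact le_rfl
  | step _ ih => exact (Ip_succ_le hY hc _).trans ih

/-- three more steps kill `I^k Y` if `I^3 v = 0` for the elements `v` -/
theorem Ip_three {Y : AddSubgroup W} {k : ℕ} (h : ∀ v ∈ Ip A Y k, ∀ a b c : A, dl c (dl b (dl a v)) = 0) :
    Ip A Y (k + 3) = ⊥ := by
  let K1 : AddSubgroup W :=
    { carrier := {w | ∀ b c : A, dl c (dl b w) = 0}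
      zero_mem' := by intro b c; rw [dl_zero, dl_zero]
      add_mem' := by
        intro v w hv hw b c
        rw [dl_add, dl_add, hv b c, hw b c, add_zero]
      neg_mem' := by
        intro v hv b c
        rw [dl_neg, dl_neg, hv b c, neg_zero] }
  let K2 : AddSubgroup W :=
    { carrier := {w | ∀ c : A, dl c w = 0}
      zero_mem' := by intro c; rw [dl_zero]
      add_mem' := by
        intro v w hv hw c
        rw [dl_add, hv c, hw c, add_zero]
      neg_mem' := by
        intro v hv c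
        rw [dl_neg, hv c, neg_zero] }
  have h1 : Ip A Y (k + 1) ≤ K1 := Ip_le fun a y hy b c => h y hy a b c
  have h2 : Ip A Y (k + 2) ≤ K2 := Ip_le fun b y hy c => h1 hy b c
  rw [eq_bot_iff]
  exact Ip_le fun c y hy => by rw [AddSubgroup.mem_bot]; exact h2 hy c

/-- the additive subgroup of vectors killed by `I^3` -/
def K3 (A W : Type*) [Group A] [AddCommGroup W] [DistribMulAction A W] : AddSubgroup W where
  carrier := {w | ∀ a b c : A, dl c (dl b (dl a w)) = 0}
  zero_mem' := by intro a b c; rw [dl_zero, dl_zero, dl_zero]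
  add_mem' := by
    intro v w hv hw a b c
    rw [dl_add, dl_add, dl_add, hv a b c, hw a b c, add_zero]
  neg_mem' := by
    intro v hv a b c
    rw [dl_neg, dl_neg, dl_neg, hv a b c, neg_zero]

variable {f : W →+ W →+ Z}

theorem f_dl (hf : ∀ (a : A) (x y : W), f (a • x) (a • y) = a • f x y) (a : A) (x y : W) :
    f (dl a x) y = f x (dl a⁻¹ y) + dl a (f x (a⁻¹ • y)) := by
  have h1 : f (a • x) y = a • f x (a⁻¹ • y) := by
    rw [← hf, smul_inv_smul]
  unfold dl
  rw [map_sub, AddMonoidHom.sub_apply, h1, map_sub]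
  abel

theorem f_anti (halt : ∀ x, f x x = 0) (x y : W) : f x y = -f y x := by
  have h := halt (x + y)
  rw [map_add, map_add, AddMonoidHom.add_apply, AddMonoidHom.add_apply, halt x, halt y, zero_add, add_zero] at h
  rw [add_comm] at h
  exact eq_neg_of_add_eq_zero_left h

/-- `f(I^i Y, I^j Y) = 0` if `I^(i+j) Y = 0` and `A` centralizes `f(Y, Y)` -/
theorem f_Ip_zero (hf : ∀ (a : A) (x y : W), f (a • x) (a • y) = a • f x y)
    (hc : ∀ (a b : A) (w : W), a • b • w = b • a • w) {Y : AddSubgroup W} (hY : ∀ a : A, ∀ y ∈ Y, a • y ∈ Y)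
    (hfix : ∀ x ∈ Y, ∀ y ∈ Y, ∀ a : A, a • f x y = f x y) (i : ℕ) :
    ∀ j : ℕ, Ip A Y (i + j) = ⊥ → ∀ x ∈ Ip A Y i, ∀ y ∈ Ip A Y j, f x y = 0 := by
  induction i with
  | zero =>
    intro j hj x _ y hy
    rw [zero_add] at hj
    rw [hj, AddSubgroup.mem_bot] at hy
    rw [hy, map_zero]
  | succ i ih =>
    intro j hj x hx y hy
    let K : AddSubgroup W :=
      { carrier := {w | f w y = 0}
        zero_mem' := by show f 0 y = 0; simp
        add_mem' := by
          intro v w hv hw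
          show f (v + w) y = 0
          rw [map_add, AddMonoidHom.add_apply, show f v y = 0 from hv, show f w y = 0 from hw, add_zero]
        neg_mem' := by
          intro v hv
          show f (-v) y = 0
          rw [map_neg, AddMonoidHom.neg_apply, show f v y = 0 from hv, neg_zero] }
    have h1 : Ip A Y (i + 1) ≤ K := by
      refine Ip_le fun a x' hx' => ?_
      show f (dl a x') y = 0
      have hx0 : x' ∈ Y := Ip_anti hY hc (Nat.zero_le i) hx'
      have hy0 : y ∈ Y := Ip_anti hY hc (Nat.zero_le j) hy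
      rw [f_dl hf a x' y]
      have h2 : dl a (f x' (a⁻¹ • y)) = 0 := by
        unfold dl
        rw [hfix x' hx0 _ (hY _ _ hy0) a, sub_self]
      rw [h2, add_zero]
      refine ih (j + 1) ?_ x' hx' _ (dl_mem hy a⁻¹)
      rw [← hj]; congr 1; omega
    exact h1 hx

/-- the descent: `I^(n+1) Y = 0 → I^n Y = 0` for `n ≥ 4` -/
theorem four_step (hf : ∀ (a : A) (x y : W), f (a • x) (a • y) = a • f x y) (halt : ∀ x, f x x = 0)
    (h2 : ∀ z : Z, z + z = 0 → z = 0)
    (hc : ∀ (a b : A) (w : W), a • b • w = b • a • w)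
    (hstar : ∀ w : W, (∀ a b : A, f (dl a w) (dl b w) = 0) → ∀ a b c : A, dl c (dl b (dl a w)) = 0)
    {Y : AddSubgroup W} (hY : ∀ a : A, ∀ y ∈ Y, a • y ∈ Y)
    (hfix : ∀ x ∈ Y, ∀ y ∈ Y, ∀ a : A, a • f x y = f x y) {n : ℕ} (hn : 4 ≤ n) (h : Ip A Y (n + 1) = ⊥) :
    Ip A Y n = ⊥ := by
  have hbot : ∀ m, n + 1 ≤ m → Ip A Y m = ⊥ := fun m hm => by
    rw [eq_bot_iff, ← h]; exact Ip_anti hY hc hm
  rcases Nat.lt_or_ge 4 n with h5 | h4
  · obtain ⟨k, rfl⟩ : ∃ k, n = k + 3 := ⟨n - 3, by omega⟩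
    refine Ip_three fun v hv => hstar v fun a b => ?_
    exact f_Ip_zero hf hc hY hfix (k + 1) (k + 1) (hbot _ (by omega)) _ (dl_mem hv a) _ (dl_mem hv b)
  · obtain rfl : n = 4 := le_antisymm h4 hn
    have h5 : Ip A Y 5 = ⊥ := h
    have hfx4 : ∀ w ∈ Ip A Y 4, ∀ a : A, a • w = w := by
      intro w hw a
      have := dl_mem hw a
      rw [h5, AddSubgroup.mem_bot] at this
      exact sub_eq_zero.1 this
    have hK : Ip A Y 1 ≤ K3 A W := by
      refine Ip_le fun b y hy => ?_
      refine hstar _ fun a c => ?_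
      have hy0 : y ∈ Y := hy
      -- `f (α y) (β y) = f y (α β y)`
      have key : ∀ a c : A, f (dl a (dl b y)) (dl c (dl b y)) = f y (dl b (dl a (dl c (dl b y)))) := by
        intro a c
        have hw : dl c (dl b y) ∈ Ip A Y 2 := dl_mem (dl_mem hy b) c
        have hmY : ∀ {w : W} {j : ℕ}, w ∈ Ip A Y j → w ∈ Y := fun hw' => Ip_anti hY hc (Nat.zero_le _) hw'
        have e1 : f (dl a (dl b y)) (dl c (dl b y)) = f (dl b y) (dl a⁻¹ (dl c (dl b y))) := by
          rw [f_dl hf]
          have : dl a (f (dl b y) (a⁻¹ • dl c (dl b y))) = 0 := by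
            unfold dl
            exact sub_eq_zero.2 (hfix _ (hmY (dl_mem (n := 0) hy b)) _ (hY _ _ (hmY hw)) a)
          rw [this, add_zero]
        have e2 : f (dl b y) (dl a⁻¹ (dl c (dl b y))) = f y (dl b⁻¹ (dl a⁻¹ (dl c (dl b y)))) := by
          rw [f_dl hf]
          have : dl b (f y (b⁻¹ • dl a⁻¹ (dl c (dl b y)))) = 0 := by
            unfold dl
            exact sub_eq_zero.2 (hfix _ hy0 _ (hY _ _ (hmY (dl_mem hw a⁻¹))) b)
          rw [this, add_zero]
        have e3 : ∀ w ∈ Ip A Y 2, dl b⁻¹ (dl a⁻¹ w) = dl b (dl a w) := by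
          intro w hw'
          have h4' := dl_mem (dl_mem hw' a) b
          have e4 : dl b⁻¹ (dl a⁻¹ w) = b⁻¹ • a⁻¹ • dl b (dl a w) := by
            unfold dl
            simp only [smul_sub]
            rw [hc a⁻¹ b (a • w), hc a⁻¹ b w, inv_smul_smul, inv_smul_smul, inv_smul_smul]
            abel
          rw [e4, hfx4 _ h4' a⁻¹, hfx4 _ h4' b⁻¹]
        rw [e1, e2, e3 _ hw]
      have k1 := key a c
      have k2 := key c a
      have e : dl b (dl a (dl c (dl b y))) = dl b (dl c (dl a (dl b y))) := by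
        rw [dl_comm hc a c]
      have k3 : f (dl a (dl b y)) (dl c (dl b y)) = f (dl c (dl b y)) (dl a (dl b y)) := by
        rw [k1, k2, e]
      have k4 := f_anti halt (dl a (dl b y)) (dl c (dl b y))
      rw [← k3] at k4
      apply h2
      nth_rewrite 1 [k4]
      exact neg_add_cancel _
    exact Ip_three (k := 1) fun v hv => hK hv

/-- **(4b)** -/
theorem four (hf : ∀ (a : A) (x y : W), f (a • x) (a • y) = a • f x y) (halt : ∀ x, f x x = 0)
    (h2 : ∀ z : Z, z + z = 0 → z = 0)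
    (hc : ∀ (a b : A) (w : W), a • b • w = b • a • w)
    (hstar : ∀ w : W, (∀ a b : A, f (dl a w) (dl b w) = 0) → ∀ a b c : A, dl c (dl b (dl a w)) = 0)
    (hnil : ∃ N, Ip A (⊤ : AddSubgroup W) N = ⊥)
    {Y : AddSubgroup W} (hY : ∀ a : A, ∀ y ∈ Y, a • y ∈ Y)
    (hfix : ∀ x ∈ Y, ∀ y ∈ Y, ∀ a : A, a • f x y = f x y) : Ip A Y 4 = ⊥ := by
  obtain ⟨N, hN⟩ := hnil
  have hmono : ∀ n, Ip A Y n ≤ Ip A (⊤ : AddSubgroup W) n := by
    intro n
    induction n with
    | zero => exact le_top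
    | succ n ih => exact Ip_le fun a y hy => dl_mem (ih hy) a
  have hN' : Ip A Y N = ⊥ := by rw [eq_bot_iff, ← hN]; exact hmono N
  have key : ∀ k, Ip A Y (4 + k) = ⊥ → Ip A Y 4 = ⊥ := by
    intro k
    induction k with
    | zero => exact id
    | succ k ih => exact fun h => ih (four_step hf halt h2 hc hstar hY hfix (by omega) h)
  refine key N ?_
  rw [eq_bot_iff, ← hN']
  exact Ip_anti hY hc (by omega)

/-- the elements of `Z` fixed by `A` -/
def Cf (A Z : Type*) [Group A] [AddCommGroup Z] [DistribMulAction A Z] : AddSubgroup Z where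
  carrier := {z | ∀ a : A, a • z = z}
  zero_mem' := fun a => smul_zero a
  add_mem' := by
    intro v w hv hw a
    rw [smul_add, hv a, hw a]
  neg_mem' := by
    intro v hv a
    rw [smul_neg, hv a]

/-- **(4a)** -/
theorem six (hf : ∀ (a : A) (x y : W), f (a • x) (a • y) = a • f x y)
    (hc : ∀ (a b : A) (w : W), a • b • w = b • a • w)
    (hstar : ∀ w : W, (∀ a b : A, f (dl a w) (dl b w) = 0) → ∀ a b c : A, dl c (dl b (dl a w)) = 0)
    (hZ : ∀ (a b : A) (z : Z), dl b (dl a z) = 0)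
    (hnil : ∃ N, Ip A (⊤ : AddSubgroup W) N = ⊥) : Ip A (⊤ : AddSubgroup W) 6 = ⊥ := by
  have hY : ∀ a : A, ∀ y ∈ (⊤ : AddSubgroup W), a • y ∈ (⊤ : AddSubgroup W) := fun _ _ _ => trivial
  have hcl : ∀ (B : AddSubgroup Z) (i j : ℕ), (∀ a : A, ∀ x ∈ Ip A (⊤ : AddSubgroup W) i,
      ∀ y ∈ Ip A (⊤ : AddSubgroup W) j, f (dl a x) y ∈ B) →
      ∀ x ∈ Ip A (⊤ : AddSubgroup W) (i + 1), ∀ y ∈ Ip A (⊤ : AddSubgroup W) j, f x y ∈ B := by
    intro B i j h x hx y hy
    let K : AddSubgroup W :=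
      { carrier := {w | f w y ∈ B}
        zero_mem' := by show f 0 y ∈ B; simp
        add_mem' := by
          intro v w hv hw
          show f (v + w) y ∈ B
          rw [map_add, AddMonoidHom.add_apply]; exact add_mem hv hw
        neg_mem' := by
          intro v hv
          show f (-v) y ∈ B
          rw [map_neg, AddMonoidHom.neg_apply]; exact neg_mem hv }
    have h1 : Ip A (⊤ : AddSubgroup W) (i + 1) ≤ K := Ip_le fun a x' hx' => h a x' hx' y hy
    exact h1 hx
  have claim1 : ∀ i j : ℕ, Ip A (⊤ : AddSubgroup W) (i + j) = ⊥ → ∀ x ∈ Ip A (⊤ : AddSubgroup W) i,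
      ∀ y ∈ Ip A (⊤ : AddSubgroup W) j, f x y ∈ Cf A Z := by
    intro i
    induction i with
    | zero =>
      intro j hj x _ y hy
      rw [zero_add] at hj
      rw [hj, AddSubgroup.mem_bot] at hy
      rw [hy, map_zero]; exact zero_mem _
    | succ i ih =>
      intro j hj
      refine hcl _ i j fun a x hx y hy => ?_
      rw [f_dl hf]
      refine add_mem (ih (j + 1) (by rw [← hj]; congr 1; omega) x hx _ (dl_mem hy a⁻¹)) ?_
      intro b
      exact sub_eq_zero.1 (hZ a b _)
  have claim2 : ∀ m : ℕ, Ip A (⊤ : AddSubgroup W) m = ⊥ → ∀ i j : ℕ, m + 1 ≤ i + j →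
      ∀ x ∈ Ip A (⊤ : AddSubgroup W) i, ∀ y ∈ Ip A (⊤ : AddSubgroup W) j, f x y ∈ (⊥ : AddSubgroup Z) := by
    intro m hm i
    have hbot : ∀ k, m ≤ k → Ip A (⊤ : AddSubgroup W) k = ⊥ := fun k hk => by
      rw [eq_bot_iff, ← hm]; exact Ip_anti hY hc hk
    induction i with
    | zero =>
      intro j hj x _ y hy
      rw [hbot j (by omega), AddSubgroup.mem_bot] at hy
      rw [hy, map_zero]; exact zero_mem _
    | succ i ih =>
      intro j hj
      refine hcl _ i j fun a x hx y hy => ?_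
      rw [f_dl hf]
      have h1 := claim1 i j (hbot _ (by omega)) x hx _ (smul_mem_Ip hY hc j a⁻¹ y hy)
      have h2 : dl a (f x (a⁻¹ • y)) = 0 := sub_eq_zero.2 (h1 a)
      rw [h2, add_zero]
      exact ih (j + 1) (by omega) x hx _ (dl_mem hy a⁻¹)
  obtain ⟨N, hN⟩ := hnil
  have key : ∀ k, Ip A (⊤ : AddSubgroup W) (6 + k) = ⊥ → Ip A (⊤ : AddSubgroup W) 6 = ⊥ := by
    intro k
    induction k with
    | zero => exact id
    | succ k ih =>
      intro h
      apply ih
      have e : 6 + k = (k + 3) + 3 := by omega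
      rw [e]
      refine Ip_three fun v hv => hstar v fun a b => ?_
      have := claim2 (6 + k + 1) h (k + 4) (k + 4) (by omega) _ (dl_mem hv a) _ (dl_mem hv b)
      exact this
  refine key N ?_
  rw [eq_bot_iff, ← hN]
  exact Ip_anti hY hc (by omega)

end Cfsg.Agent.H215.J7.Form
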