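import Cfsg.Agent.H215.J7.Iface
import Cfsg.Agent.H215.J7.Form
import Cfsg.Agent.H352.J7.RD

/-!
# The module `D / R` with the commutator form (S3068)
-/

set_option autoImplicit false

namespace Cfsg.Agent.H215.J7

open Subgroup Cfsg
open scoped commutatorElement

universe u

variable {G : Type u} [Group G]

/-- what is needed for the module -/
structure Pre (p : ℕ) (Q R D : Subgroup G) : Prop where
  Qn : Q.Normal
  Rn : R.Normal
  Dn : D.Normal
  le : R ≤ D
  leQ : D ≤ Q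
  DR : ∀ x ∈ D, ∀ y ∈ R, x * y = y * x
  DQ : ⁅D, Q⁆ ≤ R
  pow : ∀ x ∈ D, x ^ p ∈ R

theorem RD.pre {p : ℕ} {Q R D : Subgroup G} (hQ : Q.Normal) (h : RD p Q R D) : Pre p Q R D :=
  ⟨hQ, h.Rn, h.Dn, h.le, h.leQ, h.DR, h.DQ, h.pow⟩

theorem RD.pre_chief {p : ℕ} {Q R D B : Subgroup G} (hQ : Q.Normal) (h : RD p Q R D) (hB : IsChiefFactor B R)
    (hBD : B ≤ D) : Pre p Q R B :=
  ⟨hQ, h.Rn, hB.2.1, hB.1.le, hBD.trans h.leQ, fun x hx y hy => h.DR x (hBD hx) y hy,
    (commutator_mono hBD le_rfl).trans h.DQ, fun x hx => h.pow x (hBD hx)⟩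

/-- `D / R` and `Ω₁(Z(Q))` as modules, the commutator form -/
structure DMod (p : ℕ) (Q R D : Subgroup G) where
  W : Type u
  V : Type u
  iW : AddCommGroup W
  iV : AddCommGroup V
  aW : DistribMulAction G W
  aV : DistribMulAction G V
  fW : Finite W
  fV : Finite V
  w : G → W
  w_add : ∀ x ∈ D, ∀ y ∈ D, w (x * y) = w x + w y
  w_surj : ∀ u : W, ∃ x ∈ D, w x = u
  w_zero : ∀ x ∈ D, w x = 0 ↔ x ∈ R
  w_smul : ∀ (g : G), ∀ x ∈ D, w (g * x * g⁻¹) = g • w x
  v : G → V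
  v_add : ∀ x ∈ VV p Q, ∀ y ∈ VV p Q, v (x * y) = v x + v y
  v_surj : ∀ u : V, ∃ x ∈ VV p Q, v x = u
  v_zero : ∀ x ∈ VV p Q, v x = 0 ↔ x = 1
  v_smul : ∀ (g : G), ∀ x ∈ VV p Q, v (g * x * g⁻¹) = g • v x
  f : W →+ W →+ V
  f_mem : ∀ x ∈ D, ∀ y ∈ D, ⁅x, y⁆ ∈ VV p Q
  f_eq : ∀ x ∈ D, ∀ y ∈ D, f (w x) (w y) = v ⁅x, y⁆

/-- the action on the section -/
@[reducible] def secAct (D R : Subgroup G) [hD : D.Normal] [hR : R.Normal] :
    MulDistribMulAction G (↥D ⧸ R.subgroupOf D) where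
  smul g := QuotientGroup.map (R.subgroupOf D) (R.subgroupOf D) (MulAut.conjNormal g).toMonoidHom (by
    intro x hx
    exact hR.conj_mem _ hx g)
  one_smul := by
    intro x
    obtain ⟨x, rfl⟩ := QuotientGroup.mk_surjective x
    show QuotientGroup.mk _ = QuotientGroup.mk _
    congr 1
    apply Subtype.ext
    show (1 : G) * x * (1 : G)⁻¹ = x
    simp
  mul_smul := by
    intro k l x
    obtain ⟨x, rfl⟩ := QuotientGroup.mk_surjective x
    show QuotientGroup.mk _ = QuotientGroup.mk _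
    congr 1
    apply Subtype.ext
    show (k * l) * x * (k * l)⁻¹ = k * (l * x * l⁻¹) * k⁻¹
    group
  smul_mul := by
    intro k x y
    exact map_mul _ _ _
  smul_one := by
    intro k
    exact map_one _

/-- the additive action -/
@[reducible] def addAct (X V : Type*) [Group X] [CommGroup V] [MulDistribMulAction X V] :
    DistribMulAction X (Additive V) where
  smul x v := Additive.ofMul (x • Additive.toMul v)
  one_smul v := congrArg Additive.ofMul (one_smul X (Additive.toMul v))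
  mul_smul x y v := congrArg Additive.ofMul (mul_smul x y (Additive.toMul v))
  smul_zero x := congrArg Additive.ofMul (smul_one x)
  smul_add x v w := congrArg Additive.ofMul (smul_mul' x (Additive.toMul v) (Additive.toMul w))

variable [Finite G] {p : ℕ} {Q R D : Subgroup G}

omit [Finite G] in
theorem Pre.mem_ZZ (h : Pre p Q R D) {x y : G} (hx : x ∈ D) (hy : y ∈ D) : ⁅x, y⁆ ∈ ZZ Q := by
  have hR := h.Rn
  have hQ := h.Qn
  have hD := h.Dn
  have h0 : ⁅R, D⁆ = ⊥ := by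
    rw [eq_bot_iff, commutator_le]
    intro r hr d hd
    rw [mem_bot, commutatorElement_eq_one_iff_mul_comm]
    exact (h.DR d hd r hr).symm
  -- `[D, D, Q] = 1`
  have h1 : ⁅⁅D, D⁆, Q⁆ = ⊥ := by
    apply Subgroup.commutator_commutator_eq_bot_of_rotate
    · rw [eq_bot_iff, ← h0]
      exact commutator_mono h.DQ le_rfl
    · rw [eq_bot_iff, ← h0]
      exact commutator_mono (by rw [commutator_comm]; exact h.DQ) le_rfl
  have hD1 : ⁅x, y⁆ ∈ D := (commutator_le_left D D) (commutator_mem_commutator hx hy)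
  refine ⟨h.leQ hD1, mem_centralizer_iff.2 ?_⟩
  intro q hq
  have h2 : ⁅⁅x, y⁆, q⁆ ∈ ⁅⁅D, D⁆, Q⁆ := commutator_mem_commutator (commutator_mem_commutator hx hy) hq
  rw [h1, mem_bot, commutatorElement_eq_one_iff_mul_comm] at h2
  exact h2.symm

omit [Finite G] in
theorem Pre.comm_left (h : Pre p Q R D) {x x' y : G} (hx : x ∈ D) (hx' : x' ∈ D) (hy : y ∈ D) :
    ⁅x * x', y⁆ = ⁅x, y⁆ * ⁅x', y⁆ := by
  have h1 := mem_centralizer_iff.1 (h.mem_ZZ hx' hy).2 x (h.leQ hx)
  have e : ⁅x * x', y⁆ = x * ⁅x', y⁆ * x⁻¹ * ⁅x, y⁆ := by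
    simp only [commutatorElement_def]; group
  rw [e, h1, mul_inv_cancel_right]
  exact (mem_centralizer_iff.1 (h.mem_ZZ hx hy).2 _ (h.mem_ZZ hx' hy).1)

omit [Finite G] in
theorem Pre.comm_right (h : Pre p Q R D) {x y y' : G} (hx : x ∈ D) (hy : y ∈ D) (hy' : y' ∈ D) :
    ⁅x, y * y'⁆ = ⁅x, y⁆ * ⁅x, y'⁆ := by
  have h1 := mem_centralizer_iff.1 (h.mem_ZZ hx hy').2 y (h.leQ hy)
  have e : ⁅x, y * y'⁆ = ⁅x, y⁆ * (y * ⁅x, y'⁆ * y⁻¹) := by
    simp only [commutatorElement_def]; group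
  rw [e, h1, mul_inv_cancel_right]

omit [Finite G] in
theorem Pre.comm_pow (h : Pre p Q R D) {x y : G} (hx : x ∈ D) (hy : y ∈ D) (n : ℕ) : ⁅x ^ n, y⁆ = ⁅x, y⁆ ^ n := by
  induction n with
  | zero => simp
  | succ n ih => rw [pow_succ, pow_succ, h.comm_left (pow_mem hx n) hx hy, ih]

omit [Finite G] in
theorem Pre.comm_R (h : Pre p Q R D) {x y : G} (hx : x ∈ R) (hy : y ∈ D) : ⁅x, y⁆ = 1 := by
  rw [commutatorElement_eq_one_iff_mul_comm]
  exact (h.DR y hy x hx).symm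

omit [Finite G] in
theorem Pre.mem_VV (h : Pre p Q R D) {x y : G} (hx : x ∈ D) (hy : y ∈ D) : ⁅x, y⁆ ∈ VV p Q :=
  ⟨h.mem_ZZ hx hy, by rw [← h.comm_pow hx hy, h.comm_R (h.pow x hx) hy]⟩

omit [Finite G] in
theorem Pre.comm_congr (h : Pre p Q R D) {x x' y y' : G} (hx : x ∈ D) (_hx' : x' ∈ D) (hy : y ∈ D) (hy' : y' ∈ D)
    (hxx : x⁻¹ * x' ∈ R) (hyy : y⁻¹ * y' ∈ R) : ⁅x, y⁆ = ⁅x', y'⁆ := by
  have e1 : x' = x * (x⁻¹ * x') := by group
  have e2 : y' = y * (y⁻¹ * y') := by group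
  rw [e1, h.comm_left hx (h.le hxx) hy', h.comm_R hxx hy', mul_one, e2, h.comm_right hx hy (h.le hyy)]
  have h3 : ⁅x, y⁻¹ * y'⁆ = 1 := by
    rw [commutatorElement_eq_one_iff_mul_comm]
    exact h.DR x hx _ hyy
  rw [h3, mul_one]

/-- the module exists -/
theorem Pre.exists_dmod (h : Pre p Q R D) : Nonempty (DMod p Q R D) := by
  classical
  have hR := h.Rn
  have hQ := h.Qn
  have hD := h.Dn
  have hVn : (VV p Q).Normal := H352.J7.vv_normal p Q
  have hDD : ∀ x ∈ D, ∀ y ∈ D, ⁅x, y⁆ ∈ R := fun x hx y hy =>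
    h.DQ (commutator_mem_commutator hx (h.leQ hy))
  let iD : CommGroup (↥D ⧸ R.subgroupOf D) :=
    { (inferInstance : Group (↥D ⧸ R.subgroupOf D)) with
      mul_comm := by
        intro a b
        obtain ⟨a, rfl⟩ := QuotientGroup.mk_surjective a
        obtain ⟨b, rfl⟩ := QuotientGroup.mk_surjective b
        rw [← QuotientGroup.mk_mul, ← QuotientGroup.mk_mul, QuotientGroup.eq, mem_subgroupOf]
        have h1 := hDD _ (inv_mem b.2) _ (inv_mem a.2)
        have e : (((a * b)⁻¹ * (b * a) : ↥D) : G) = ⁅(b : G)⁻¹, (a : G)⁻¹⁆ := by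
          simp only [Subgroup.coe_mul, Subgroup.coe_inv, commutatorElement_def]; group
        rw [e]; exact h1 }
  let aD : MulDistribMulAction G (↥D ⧸ R.subgroupOf D) := secAct D R
  let iV : CommGroup ↥(VV p Q) :=
    { (inferInstance : Group ↥(VV p Q)) with
      mul_comm := by
        intro a b
        apply Subtype.ext
        exact (mem_centralizer_iff.1 a.2.1.2 _ b.2.1.1).symm }
  let aV : MulDistribMulAction G ↥(VV p Q) := MulDistribMulAction.compHom _ (MulAut.conjNormal (H := VV p Q))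
  let w : G → Additive (↥D ⧸ R.subgroupOf D) := fun x =>
    if hx : x ∈ D then Additive.ofMul (QuotientGroup.mk (⟨x, hx⟩ : ↥D)) else 0
  let v : G → Additive ↥(VV p Q) := fun x =>
    if hx : x ∈ VV p Q then Additive.ofMul (⟨x, hx⟩ : ↥(VV p Q)) else 0
  have hw : ∀ x (hx : x ∈ D), w x = Additive.ofMul (QuotientGroup.mk (⟨x, hx⟩ : ↥D)) := fun x hx => dif_pos hx
  have hv : ∀ x (hx : x ∈ VV p Q), v x = Additive.ofMul (⟨x, hx⟩ : ↥(VV p Q)) := fun x hx => dif_pos hx
  have hws : ∀ u : Additive (↥D ⧸ R.subgroupOf D), ∃ x ∈ D, w x = u := by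
    intro u
    obtain ⟨x, hx⟩ := QuotientGroup.mk_surjective (Additive.toMul u)
    exact ⟨x, x.2, (hw x x.2).trans (congrArg Additive.ofMul hx)⟩
  have hwe : ∀ x ∈ D, ∀ y ∈ D, w x = w y → x⁻¹ * y ∈ R := by
    intro x hx y hy hxy
    rw [hw x hx, hw y hy] at hxy
    have h1 := QuotientGroup.eq.1 (Additive.ofMul.injective hxy)
    exact h1
  have hwa : ∀ x ∈ D, ∀ y ∈ D, w (x * y) = w x + w y := by
    intro x hx y hy
    rw [hw x hx, hw y hy, hw _ (mul_mem hx hy)]
    rfl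
  have hva : ∀ x ∈ VV p Q, ∀ y ∈ VV p Q, v (x * y) = v x + v y := by
    intro x hx y hy
    rw [hv x hx, hv y hy, hv _ (mul_mem hx hy)]
    rfl
  choose r hrD hr using hws
  let f : Additive (↥D ⧸ R.subgroupOf D) →+ Additive (↥D ⧸ R.subgroupOf D) →+ Additive ↥(VV p Q) :=
    AddMonoidHom.mk' (fun a => AddMonoidHom.mk' (fun b => v ⁅r a, r b⁆) (by
      intro b c
      have h1 : ⁅r a, r (b + c)⁆ = ⁅r a, r b * r c⁆ := by
        apply h.comm_congr (hrD _) (hrD _) (hrD _) (mul_mem (hrD _) (hrD _)) (by rw [inv_mul_cancel]; exact one_mem _)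
        apply hwe _ (hrD _) _ (mul_mem (hrD _) (hrD _))
        rw [hr, hwa _ (hrD _) _ (hrD _), hr, hr]
      show v ⁅r a, r (b + c)⁆ = v ⁅r a, r b⁆ + v ⁅r a, r c⁆
      rw [h1, h.comm_right (hrD _) (hrD _) (hrD _), hva _ (h.mem_VV (hrD _) (hrD _)) _ (h.mem_VV (hrD _) (hrD _))]))
      (by
        intro a b
        apply AddMonoidHom.ext
        intro c
        have h1 : ⁅r (a + b), r c⁆ = ⁅r a * r b, r c⁆ := by
          apply h.comm_congr (hrD _) (mul_mem (hrD _) (hrD _)) (hrD _) (hrD _) _ (by rw [inv_mul_cancel]; exact one_mem _)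
          apply hwe _ (hrD _) _ (mul_mem (hrD _) (hrD _))
          rw [hr, hwa _ (hrD _) _ (hrD _), hr, hr]
        show v ⁅r (a + b), r c⁆ = v ⁅r a, r c⁆ + v ⁅r b, r c⁆
        rw [h1, h.comm_left (hrD _) (hrD _) (hrD _), hva _ (h.mem_VV (hrD _) (hrD _)) _ (h.mem_VV (hrD _) (hrD _))])
  exact ⟨{
    W := Additive (↥D ⧸ R.subgroupOf D)
    V := Additive ↥(VV p Q)
    iW := inferInstance
    iV := inferInstance
    aW := addAct _ _
    aV := addAct _ _
    fW := inferInstanceAs (Finite (↥D ⧸ R.subgroupOf D))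
    fV := inferInstanceAs (Finite ↥(VV p Q))
    w := w
    w_add := hwa
    w_surj := fun u => ⟨r u, hrD u, hr u⟩
    w_zero := by
      intro x hx
      rw [hw x hx]
      constructor
      · intro h1
        have h2 : (QuotientGroup.mk (⟨x, hx⟩ : ↥D) : ↥D ⧸ R.subgroupOf D) = 1 := h1
        rw [QuotientGroup.eq_one_iff] at h2
        exact h2
      · intro h1
        have h2 : (QuotientGroup.mk (⟨x, hx⟩ : ↥D) : ↥D ⧸ R.subgroupOf D) = 1 := by
          rw [QuotientGroup.eq_one_iff]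
          exact h1
        exact h2
    w_smul := by
      intro g x hx
      rw [hw x hx, hw _ (hD.conj_mem x hx g)]
      rfl
    v := v
    v_add := hva
    v_surj := fun u => ⟨_, (Additive.toMul u).2, hv _ (Additive.toMul u).2⟩
    v_zero := by
      intro x hx
      rw [hv x hx]
      constructor
      · intro h1
        exact congrArg Subtype.val h1
      · intro h1
        exact congrArg Additive.ofMul (Subtype.ext h1)
    v_smul := by
      intro g x hx
      rw [hv x hx, hv _ (hVn.conj_mem x hx g)]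
      rfl
    f := f
    f_mem := fun x hx y hy => h.mem_VV hx hy
    f_eq := by
      intro x hx y hy
      show v ⁅r (w x), r (w y)⁆ = v ⁅x, y⁆
      congr 1
      apply h.comm_congr (hrD _) hx (hrD _) hy
      · exact hwe _ (hrD _) _ hx (hr _)
      · exact hwe _ (hrD _) _ hy (hr _) }⟩

end Cfsg.Agent.H215.J7
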