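import Mathlib.GroupTheory.Sylow
import Mathlib.GroupTheory.Commutator.Basic
import Cfsg.Prelude.Def_Transfer
import Cfsg.Prelude.Def_PLocal
import Cfsg.Prelude.Def_LocalEven

/-!
# S3068 (`p ≥ 7`, `N_G(J(S))` controls transfer): the interface (helper215)

Notation of the plan `tools/plans/S3068.md`.  `Q = O_p(G)`, `R` a maximal abelian normal subgroup of `G` in `Q`,
`D / R` the product of the minimal normal subgroups of `G / R` in `C_Q(R) / R`, `A` an abelian subgroup of largest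
order of the Sylow subgroup `S`, not contained in `Q`, with lexicographically largest `|A ∩ Z(Q)|`, `|A ∩ R|`,
`|A ∩ D|`.
-/

set_option autoImplicit false

namespace Cfsg.Agent.H215.J7

open Subgroup Cfsg
open scoped commutatorElement

variable {G : Type*} [Group G]

/-- `A` is abelian -/
def Ab (A : Subgroup G) : Prop := ∀ a ∈ A, ∀ b ∈ A, a * b = b * a

/-- the centre of `Q`, as a subgroup of `G` -/
def ZZ (Q : Subgroup G) : Subgroup G := Q ⊓ centralizer (Q : Set G)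

/-- a minimal failure: `C_G(Q) ≤ Q = O_p(G)` and all proper overgroups of the Sylow subgroup `S` lie in `M < G` -/
structure Cfg (p : ℕ) (S M : Subgroup G) : Prop where
  cen : centralizer (pCore p G : Set G) ≤ pCore p G
  ne : M ≠ ⊤
  max : ∀ H : Subgroup G, S ≤ H → H ≠ ⊤ → H ≤ M

/-- the normal subgroups `R ≤ D` of `G` in `Q` -/
structure RD (p : ℕ) (Q R D : Subgroup G) : Prop where
  Rn : R.Normal
  Dn : D.Normal
  le : R ≤ D
  leQ : D ≤ Q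
  Rab : Ab R
  ZR : ZZ Q ≤ R
  DR : ∀ x ∈ D, ∀ y ∈ R, x * y = y * x
  DQ : ⁅D, Q⁆ ≤ R
  pow : ∀ x ∈ D, x ^ p ∈ R
  cen : Q ⊓ centralizer (D : Set G) ≤ R
  soc : D ≤ R ⊔ sSup {B : Subgroup G | IsChiefFactor B R ∧ B ≤ D}

/-- the choice of `A` -/
structure Pick (S Q R D A : Subgroup G) : Prop where
  le : A ≤ S
  comm : Ab A
  max : ∀ B ≤ S, Ab B → Nat.card B ≤ Nat.card A
  not_le : ¬ A ≤ Q
  lexZ : ∀ B ≤ S, Ab B → Nat.card B = Nat.card A → ¬ B ≤ Q →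
    Nat.card ↥(B ⊓ ZZ Q) ≤ Nat.card ↥(A ⊓ ZZ Q)
  lexR : ∀ B ≤ S, Ab B → Nat.card B = Nat.card A → ¬ B ≤ Q → Nat.card ↥(B ⊓ ZZ Q) = Nat.card ↥(A ⊓ ZZ Q) →
    Nat.card ↥(B ⊓ R) ≤ Nat.card ↥(A ⊓ R)
  lexD : ∀ B ≤ S, Ab B → Nat.card B = Nat.card A → ¬ B ≤ Q → Nat.card ↥(B ⊓ ZZ Q) = Nat.card ↥(A ⊓ ZZ Q) →
    Nat.card ↥(B ⊓ R) = Nat.card ↥(A ⊓ R) → Nat.card ↥(B ⊓ D) ≤ Nat.card ↥(A ⊓ D)

/-- `Ω₁(Z(Q))` -/
def VV (p : ℕ) (Q : Subgroup G) : Subgroup G where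
  carrier := {v | v ∈ ZZ Q ∧ v ^ p = 1}
  one_mem' := ⟨one_mem _, one_pow _⟩
  mul_mem' := by
    rintro a b ⟨ha, ha'⟩ ⟨hb, hb'⟩
    have hc : Commute a b := by
      have := mem_centralizer_iff.1 hb.2 a ha.1
      exact this
    exact ⟨mul_mem ha hb, by rw [hc.mul_pow, ha', hb', one_mul]⟩
  inv_mem' := by
    rintro a ⟨ha, ha'⟩
    exact ⟨inv_mem ha, by rw [inv_pow, ha', inv_one]⟩

theorem mem_VV {p : ℕ} {Q : Subgroup G} {v : G} : v ∈ VV p Q ↔ v ∈ ZZ Q ∧ v ^ p = 1 := Iff.rfl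

end Cfsg.Agent.H215.J7
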