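import Cfsg.Agent.H215.J7.Assembly
import Cfsg.Agent.H456.J7.T7d
import Cfsg.Agent.H764.J7.TSevenC

/-!
# S3068: the final step
-/

set_option autoImplicit false

namespace Cfsg.Agent.H215.J7

open Subgroup Cfsg Cfsg.Agent.H215.J7.Form
open scoped commutatorElement

universe u

variable {G : Type u} [Group G] [Finite G] {p : ℕ} [Fact p.Prime]

/-- four for minimal failures -/
theorem t9_four (hp : 7 ≤ p) (S : Sylow p G) {M : Subgroup G} (c : Cfg p (S : Subgroup G) M)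
    {R D A : Subgroup G} (h : RD p (pCore p G) R D) (hA : Pick (S : Subgroup G) (pCore p G) R D A) :
    ∀ x ∈ D, ∀ u ∈ A, ⁅u, ⁅u, ⁅u, ⁅u, x⁆⁆⁆⁆ ∈ R := by
  by_cases hN : centralizer (VV p (pCore p G) : Set G) ⊔ (S : Subgroup G) = ⊤
  · exact four_b hp S h hA hN
  · obtain ⟨t, ht, htA, htV⟩ := H456.J7.t7d_of_t7c hp
      (fun hc {_ _ _} h1 h2 h3 h4 h5 h6 h7 h8 => H764.J7.t7c_hh hp hc h1 h2 h3 h4 h5 h6 h7 h8)
      S c h hA.le hA.comm hA.max hA.not_le (H587.S3068.t3_quad S h hA) hN (six_chief hp S h hA)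
    exact four_t hp S h hA ht htA htV

/-- a good element -/
theorem exists_good (hp : 7 ≤ p) (S : Sylow p G) (M : Subgroup G) (c : Cfg p (S : Subgroup G) M)
    (hJ : ¬ thompsonSubgroupAOf (S : Subgroup G) ≤ pCore p G) :
    ∃ g : G, g ∈ (S : Subgroup G) ∧ g ∉ pCore p G ∧ H39.Good p (pCore p G) g := by
  obtain ⟨R, D, h⟩ := H352.J7.t5_exists_RD (p := p) (pCore p G) (pCore_normal p G) (pCore_isP p G)
  obtain ⟨A, hA⟩ := H587.S3068.t2_exists_pick S hJ R D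
  obtain ⟨g, hgA, hgQ⟩ := SetLike.not_le_iff_exists.1 hA.not_le
  exact ⟨g, hA.le hgA, hgQ, H575.J7.t8_good hp h
    (fun X hX hXR x hx => H587.S3068.t3_cubic S h hA hX hXR x hx g hgA g hgA g hgA)
    (fun x hx => t9_four hp S c h hA x hx g hgA)⟩

end Cfsg.Agent.H215.J7
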