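import Mathlib.RingTheory.LittleWedderburn
import Mathlib.RingTheory.Ideal.Quotient.Defs
import Mathlib.RingTheory.Nilpotent.Basic
import Mathlib.Tactic.NoncommRing
import Mathlib.Tactic.Ring
import Mathlib.Data.Fintype.EquivFin

/-!
# Finite reduced rings are commutative
-/

set_option autoImplicit false

namespace Cfsg.Agent.H215.J7.Reduced

variable {R : Type*} [Ring R]

theorem idem_central (hR : ∀ x : R, x * x = 0 → x = 0) {e : R} (he : e * e = e) (r : R) : e * r = r * e := by
  have h1 : e * r - e * r * e = 0 := by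
    apply hR
    have : (e * r - e * r * e) * (e * r - e * r * e) =
      e * r * (e * r) - e * r * (e * r * e) - (e * r * (e * e) * r - e * r * (e * e) * r * e) := by noncomm_ring
    rw [this, he]; noncomm_ring
  have h2 : r * e - e * r * e = 0 := by
    apply hR
    have : (r * e - e * r * e) * (r * e - e * r * e) =
      r * e * r * e - r * (e * e) * r * e - e * r * e * r * e + e * r * (e * e) * r * e := by noncomm_ring
    rw [this, he]; noncomm_ring
  rw [sub_eq_zero.1 h1, ← sub_eq_zero.1 h2]

theorem exists_pow (hR : ∀ x : R, x * x = 0 → x = 0) [Finite R] (w : R) : ∃ m : ℕ, 1 ≤ m ∧ w * w ^ m = w := by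
  obtain ⟨i, j, hij, h⟩ := Finite.exists_ne_map_eq_of_infinite (fun n : ℕ => w ^ n)
  have hred : IsReduced R := (isReduced_iff_pow_one_lt 2 one_lt_two).2 fun x hx => hR x (by rw [← sq]; exact hx)
  wlog hlt : i < j generalizing i j
  · exact this j i hij.symm h.symm (lt_of_le_of_ne (not_lt.1 hlt) hij.symm)
  refine ⟨j - i, by omega, ?_⟩
  have h1 : w ^ i * (1 - w ^ (j - i)) = 0 := by
    rw [mul_sub, mul_one, ← pow_add, show i + (j - i) = j by omega, sub_eq_zero]
    exact h
  have hc : Commute w (1 - w ^ (j - i)) := (Commute.one_right w).sub_right ((Commute.refl w).pow_right _)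
  have h2 : (w * (1 - w ^ (j - i))) ^ (i + 1) = 0 := by
    rw [hc.mul_pow, pow_succ w, pow_succ (1 - w ^ (j - i))]
    have e : w ^ i * w * ((1 - w ^ (j - i)) ^ i * (1 - w ^ (j - i))) =
        w ^ i * (1 - w ^ (j - i)) * (w * (1 - w ^ (j - i)) ^ i) := by
      have c1 : Commute w ((1 - w ^ (j - i)) ^ i) := hc.pow_right i
      have c2 : Commute (w * (1 - w ^ (j - i)) ^ i) (1 - w ^ (j - i)) := hc.mul_left ((Commute.refl _).pow_left i)
      calc w ^ i * w * ((1 - w ^ (j - i)) ^ i * (1 - w ^ (j - i)))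
          = w ^ i * ((w * (1 - w ^ (j - i)) ^ i) * (1 - w ^ (j - i))) := by simp only [mul_assoc]
        _ = w ^ i * ((1 - w ^ (j - i)) * (w * (1 - w ^ (j - i)) ^ i)) := by rw [c2.eq]
        _ = _ := by simp only [mul_assoc]
    rw [e, h1, zero_mul]
  have h3 : w * (1 - w ^ (j - i)) = 0 := hred.eq_zero _ ⟨_, h2⟩
  rw [mul_sub, mul_one, sub_eq_zero] at h3
  exact h3.symm

/-- **finite reduced rings are commutative** -/
theorem comm (hR : ∀ x : R, x * x = 0 → x = 0) [Finite R] (x y : R) : x * y = y * x := by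
  classical
  by_contra hxy
  have hz : x * y - y * x ≠ 0 := fun h => hxy (sub_eq_zero.1 h)
  set z := x * y - y * x with hzdef
  -- a minimal idempotent `e` with `e z ≠ 0`
  obtain ⟨e, ⟨he, hez⟩, hmin⟩ : ∃ e : R, (e * e = e ∧ e * z ≠ 0) ∧
      ∀ f : R, f * f = f → f * z ≠ 0 → e * f = f → f = e := by
    let F : Set R := {e | e * e = e ∧ e * z ≠ 0}
    have hF : F.Nonempty := ⟨1, one_mul 1, by rw [one_mul]; exact hz⟩
    obtain ⟨e, he, hm⟩ := Set.exists_min_image F (fun e => Nat.card {r : R // e * r = r}) (Set.toFinite _) hF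
    refine ⟨e, he, fun f hf hfz hef => ?_⟩
    by_contra hfe
    have h1 := hm f ⟨hf, hfz⟩
    have hsub : ∀ r : R, f * r = r → e * r = r := fun r hr => by
      rw [← hr, ← mul_assoc, hef]
    let g : {r : R // f * r = r} → {r : R // e * r = r} := fun r => ⟨r.1, hsub _ r.2⟩
    have hg : Function.Injective g := fun a b hab => Subtype.ext (congrArg (fun t => t.1) hab)
    have hb : Function.Surjective g :=
      ((Nat.bijective_iff_injective_and_card g).2 ⟨hg, le_antisymm (Nat.card_le_card_of_injective g hg) h1⟩).2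
    obtain ⟨r, hr⟩ := hb ⟨e, he.1⟩
    have hr' : r.1 = e := congrArg (fun t => t.1) hr
    have h2 : f * e = e := by rw [← hr']; exact r.2
    apply hfe
    rw [← h2, idem_central hR hf, hef]
  have hce : ∀ r, e * r = r * e := idem_central hR he
  -- nonzero elements of `e R` have a power equal to `e`
  have hinv : ∀ w : R, e * w = w → w ≠ 0 → ∃ m : ℕ, w ^ (m + 1) = e := by
    intro w hw hw0
    obtain ⟨m, hm1, hm⟩ := exists_pow hR w
    obtain ⟨k, rfl⟩ : ∃ k, m = k + 1 := ⟨m - 1, by omega⟩
    refine ⟨k, ?_⟩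
    set f := w ^ (k + 1) with hf
    have hff : f * f = f := by
      have : f * f = w ^ k * (w * w ^ (k + 1)) := by
        rw [hf, ← mul_assoc, ← pow_succ]
      rw [this, hm, ← pow_succ]
    have hef : e * f = f := by
      rw [hf, pow_succ', ← mul_assoc, hw]
    have hf0 : f ≠ 0 := by
      intro h
      rw [h, mul_zero] at hm
      exact hw0 hm.symm
    by_cases hfz : f * z = 0
    · exfalso
      have h1 : (e - f) * z ≠ 0 := by rw [sub_mul, hfz, sub_zero]; exact hez
      have h2 : (e - f) * (e - f) = e - f := by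
        rw [sub_mul, mul_sub, mul_sub, he, hef, hff, ← hce f, hef]; abel
      have h3 : e * (e - f) = e - f := by rw [mul_sub, he, hef]
      have h4 := hmin _ h2 h1 h3
      apply hf0
      have : e - (e - f) = 0 := by rw [h4, sub_self]
      rwa [sub_sub_cancel] at this
    · exact hmin f hff hfz hef
  -- the quotient by the annihilator of `e`
  let I : Ideal R :=
    { carrier := {r | e * r = 0}
      zero_mem' := mul_zero e
      add_mem' := by
        intro a b ha hb
        show e * (a + b) = 0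
        rw [mul_add, show e * a = 0 from ha, show e * b = 0 from hb, add_zero]
      smul_mem' := by
        intro c r hr
        show e * (c * r) = 0
        rw [← mul_assoc, hce c, mul_assoc, show e * r = 0 from hr, mul_zero] }
  have hI : ∀ r, r ∈ I ↔ e * r = 0 := fun r => Iff.rfl
  have hI2 : I.IsTwoSided := ⟨fun b {a} ha => by
    rw [hI] at ha ⊢
    rw [← mul_assoc, ha, zero_mul]⟩
  have hnt : Nontrivial (R ⧸ I) := by
    refine ⟨⟨0, 1, ?_⟩⟩
    intro h
    have h1 : (1 : R) ∈ I := Ideal.Quotient.eq_zero_iff_mem.1 (by rw [map_one]; exact h.symm)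
    rw [hI, mul_one] at h1
    exact hez (by rw [h1, zero_mul])
  have hnzd : NoZeroDivisors (R ⧸ I) := by
    refine ⟨fun {a b} hab => ?_⟩
    obtain ⟨r, rfl⟩ := Ideal.Quotient.mk_surjective a
    obtain ⟨s, rfl⟩ := Ideal.Quotient.mk_surjective b
    rw [← map_mul, Ideal.Quotient.eq_zero_iff_mem, hI] at hab
    rw [Ideal.Quotient.eq_zero_iff_mem, Ideal.Quotient.eq_zero_iff_mem, hI, hI]
    by_cases hr : e * r = 0
    · exact Or.inl hr
    right
    obtain ⟨m, hm⟩ := hinv (e * r) (by rw [← mul_assoc, he]) hr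
    rw [← hm, pow_succ, mul_assoc, mul_assoc e, hab, mul_zero]
  have hdom : IsDomain (R ⧸ I) := NoZeroDivisors.to_isDomain _
  have hfin : Finite (R ⧸ I) := Finite.of_surjective _ (Ideal.Quotient.mk_surjective (I := I))
  have hfield := Finite.isDomain_to_isField (R ⧸ I)
  have h1 := hfield.mul_comm (Ideal.Quotient.mk I x) (Ideal.Quotient.mk I y)
  rw [← map_mul, ← map_mul, ← sub_eq_zero, ← map_sub, Ideal.Quotient.eq_zero_iff_mem, hI] at h1
  exact hez h1

end Cfsg.Agent.H215.J7.Reduced
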